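import Cfsg.Agent.Known.ChevFieldInvol
import Cfsg.Agent.Chev.Rules

/-!
# The exponent of a Sylow 2-subgroup of F4 in characteristic 2

Positive root elements strictly raise the height grading of the adjoint module, which has 23
levels, so every 2-element is killed by the 32nd power.
-/

set_option autoImplicit false
set_option linter.style.haveILetI false

namespace Cfsg.Agent.ReeExp

open Cfsg.Lie Cfsg.Agent.ChevGrp
open scoped MatrixGroups

/-- Shifted heights of the roots of type F4. -/
def htTab : List ℕ := [0, 1, 2, 3, 4, 5, 6, 4, 5, 6, 7, 7, 8, 9, 10, 6, 7, 8, 8, 9, 10, 9, 10, 10,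
  12, 12, 13, 12, 13, 14, 14, 15, 16, 12, 13, 14, 15, 15, 16, 17, 18, 16, 17, 18, 19, 20, 21, 22]

/-- The shifted height of a coordinate. -/
def lev : chevF4.Idx → ℕ
  | Sum.inl _ => 11
  | Sum.inr s => htTab.getD s.val 0

theorem lev_le : ∀ i : chevF4.Idx, lev i ≤ 22 := by decide +kernel

set_option maxHeartbeats 0 in
set_option maxRecDepth 100000 in
theorem pos_table : ((List.range 48).filter fun r => decide (chevF4.IsPosRoot r)).all (fun r =>
    decide (11 < htTab.getD r 0) && decide (htTab.getD (chevF4.negIdx.getD r 0) 0 < 11) &&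
    (chevF4.chain.getD r #[]).toList.all fun e => e.2.toList.all fun q =>
      decide (htTab.getD e.1 0 < htTab.getD q.1 0)) = true := by
  decide +kernel

variable {F : Type*} [Field F]

/-- `A` raises the level by at least `k`. -/
def Raises (k : ℕ) (A : Matrix chevF4.Idx chevF4.Idx F) : Prop :=
  ∀ i j, A i j ≠ 0 → lev j + k ≤ lev i

theorem Raises.mul {k l : ℕ} {A B : Matrix chevF4.Idx chevF4.Idx F} (hA : Raises k A)
    (hB : Raises l B) : Raises (k + l) (A * B) := by
  intro i j h
  rw [Matrix.mul_apply] at h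
  obtain ⟨m, -, hm⟩ := Finset.exists_ne_zero_of_sum_ne_zero h
  have h1 := hA i m (left_ne_zero_of_mul hm)
  have h2 := hB m j (right_ne_zero_of_mul hm)
  omega

theorem Raises.mono {k l : ℕ} {A : Matrix chevF4.Idx chevF4.Idx F} (hA : Raises k A)
    (h : l ≤ k) : Raises l A := fun i j hij => le_trans (by omega) (hA i j hij)

theorem Raises.add {k : ℕ} {A B : Matrix chevF4.Idx chevF4.Idx F} (hA : Raises k A)
    (hB : Raises k B) : Raises k (A + B) := by
  intro i j h
  by_cases h0 : A i j = 0
  · refine hB i j ?_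
    rwa [Matrix.add_apply, h0, zero_add] at h
  · exact hA i j h0

theorem raises_zero_one (k : ℕ) : Raises k (0 : Matrix chevF4.Idx chevF4.Idx F) :=
  fun i j h => absurd (Matrix.zero_apply i j) h

theorem Raises.pow {A : Matrix chevF4.Idx chevF4.Idx F} (hA : Raises 1 A) :
    ∀ n : ℕ, Raises n (A ^ n)
  | 0 => fun i j h => by
    rw [pow_zero, Matrix.one_apply] at h
    by_cases hij : i = j
    · subst hij; simp
    · exact absurd (if_neg hij) h
  | n + 1 => by rw [pow_succ]; exact (Raises.pow hA n).mul hA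

theorem Raises.pow_eq_zero {A : Matrix chevF4.Idx chevF4.Idx F} (hA : Raises 1 A) :
    A ^ 32 = 0 := by
  ext i j
  by_contra h
  have := hA.pow 32 i j h
  have := lev_le i
  omega

theorem raises_x {r : ℕ} (hr : chevF4.IsPosRoot r) (t : F) : Raises 1 (chevF4.x F r t - 1) := by
  have hrn : r < 48 := hr.1
  have h := List.all_eq_true.1 pos_table r
    (List.mem_filter.2 ⟨List.mem_range.2 hrn, decide_eq_true hr⟩)
  simp only [Bool.and_eq_true, decide_eq_true_eq, List.all_eq_true] at h
  obtain ⟨⟨hr1, hr2⟩, hch⟩ := h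
  intro i j hij
  rw [ChevalleyDatum.x, dif_pos hr.1] at hij
  rw [Matrix.sub_apply, ChevalleyDatum.xMat, Matrix.of_apply] at hij
  rcases j with j | s
  · rcases i with i | u
    · exact absurd hij (by simp [Matrix.one_apply])
    · by_cases hu : (u : ℕ) = r
      · show 11 + 1 ≤ htTab.getD u.val 0
        rw [hu]; omega
      · exact absurd hij (by simp [Matrix.one_apply, Fin.ext_iff, hu])
  · by_cases hs : (s : ℕ) = r
    · exact absurd hij (by
        rcases i with i | u
        · simp [Matrix.one_apply, Fin.ext_iff, hs]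
        · by_cases hu : (u : ℕ) = r <;> simp [Matrix.one_apply, Fin.ext_iff, hs, hu])
    have hs' : s ≠ (⟨r, hr.1⟩ : Fin chevF4.nroots) := fun e => hs (congrArg Fin.val e)
    simp only [if_neg hs'] at hij
    by_cases hn : (s : ℕ) = chevF4.negIdx.getD r 0
    · simp only [if_pos hn] at hij
      show htTab.getD s.val 0 + 1 ≤ _
      rw [hn]
      rcases i with i | u
      · show _ ≤ 11
        omega
      · by_cases hu : (u : ℕ) = r
        · show _ ≤ htTab.getD u.val 0
          rw [hu]; omega
        · exact absurd hij (by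
            by_cases hus : u = s <;> simp [Matrix.one_apply, Fin.ext_iff, hu, hus])
    · simp only [if_neg hn] at hij
      rcases i with i | u
      · exact absurd hij (by simp [Matrix.one_apply])
      · cases hl : chevF4.chainCoeff r s.val u.val with
        | nil =>
          refine absurd hij ?_
          by_cases hus : u = s
          · subst hus; simp [hl]
          · simp [Matrix.one_apply, hl, hus]
        | cons km L =>
          have hm : km ∈ chevF4.chainCoeff r s.val u.val := by rw [hl]; exact List.mem_cons_self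
          rw [ChevalleyDatum.chainCoeff, List.mem_flatMap] at hm
          obtain ⟨e, he, hkm⟩ := hm
          obtain ⟨he1, he2⟩ := List.mem_filter.1 he
          rw [List.mem_map] at hkm
          obtain ⟨q, hq, -⟩ := hkm
          obtain ⟨hq1, hq2⟩ := List.mem_filter.1 hq
          have hq1' : q.1 ∈ e.2.toList := List.fst_mem_of_mem_zipIdx hq1
          have := hch e he1 q.1 hq1'
          rw [of_decide_eq_true he2, of_decide_eq_true hq2] at this
          show htTab.getD s.val 0 + 1 ≤ htTab.getD u.val 0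
          omega

variable [CharP F 2]

theorem pow32_eq_one_of_raises {g : GL chevF4.Idx F}
    (hg : Raises 1 ((g : Matrix chevF4.Idx chevF4.Idx F) - 1)) : g ^ 32 = 1 := by
  haveI : Nonempty chevF4.Idx := ⟨Sum.inl ⟨0, by decide⟩⟩
  haveI : CharP (Matrix chevF4.Idx chevF4.Idx F) 2 := inferInstance
  haveI : Fact (Nat.Prime 2) := ⟨Nat.prime_two⟩
  refine Units.ext ?_
  have h : ((g : Matrix chevF4.Idx chevF4.Idx F) - 1) ^ 2 ^ 5 =
      (g : Matrix chevF4.Idx chevF4.Idx F) ^ 2 ^ 5 - 1 ^ 2 ^ 5 :=
    sub_pow_char_pow_of_commute _ _ (Commute.one_right _)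
  rw [one_pow, show (2 : ℕ) ^ 5 = 32 from rfl, hg.pow_eq_zero] at h
  rw [Units.val_pow_eq_pow_val, Units.val_one]
  exact sub_eq_zero.1 h.symm

theorem pow32_posUnipotent [Fintype F] {g : GL chevF4.Idx F} (hg : g ∈ chevF4.posUnipotent F) :
    g ^ 32 = 1 := by
  classical
  refine pow32_eq_one_of_raises ?_
  let M : Submonoid (GL chevF4.Idx F) :=
    { carrier := {g | Raises 1 ((g : Matrix chevF4.Idx chevF4.Idx F) - 1)}
      one_mem' := by simpa using raises_zero_one (F := F) 1
      mul_mem' := fun {a b} ha hb => by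
        have : ((a * b : GL chevF4.Idx F) : Matrix chevF4.Idx chevF4.Idx F) - 1 =
            ((a : Matrix chevF4.Idx chevF4.Idx F) - 1) * ((b : Matrix chevF4.Idx chevF4.Idx F) - 1)
              + (((a : Matrix chevF4.Idx chevF4.Idx F) - 1) +
                ((b : Matrix chevF4.Idx chevF4.Idx F) - 1)) := by
          rw [Units.val_mul]; noncomm_ring
        show Raises 1 _
        rw [this]
        exact ((Raises.mul ha hb).mono (by omega)).add (ha.add hb) }
  have hM : ∀ a ∈ M, a⁻¹ ∈ M := fun a ha => by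
    have h1 : a ^ 31 * a = 1 := by
      rw [← pow_succ]; exact pow32_eq_one_of_raises ha
    rw [← eq_inv_of_mul_eq_one_left h1]
    exact M.pow_mem ha 31
  let S : Subgroup (GL chevF4.Idx F) := { M with inv_mem' := fun {a} ha => hM a ha }
  have hle : chevF4.posUnipotent F ≤ S := by
    rw [ChevalleyDatum.posUnipotent, Subgroup.closure_le]
    rintro h ⟨r, t, hr, hh⟩
    show Raises 1 _
    rw [hh]
    exact raises_x hr t
  exact hle hg

theorem genSubgroup_le {S : Set (List (ℕ × F))} (hS : Rules chevF4 F) :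
    chevF4.genSubgroup F S ≤ chevF4.group F := by
  rw [ChevalleyDatum.genSubgroup, Subgroup.closure_le]
  rintro g ⟨w, -, hg⟩
  obtain ⟨h, hh, hhw⟩ : ∃ h ∈ chevF4.group F,
      (h : Matrix chevF4.Idx chevF4.Idx F) = chevF4.wordMat F w := by
    clear hg g
    induction w with
    | nil => exact ⟨1, one_mem _, rfl⟩
    | cons p w ih =>
      obtain ⟨h, hh, hhw⟩ := ih
      refine ⟨xGL chevF4 F p.1 p.2 * h, mul_mem ?_ hh, ?_⟩
      · by_cases hp : p.1 < chevF4.nroots
        · exact Subgroup.subset_closure ⟨⟨p.1, hp⟩, p.2, by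
            rw [val_xGL hS, ChevalleyDatum.x, dif_pos hp]⟩
        · have : xGL chevF4 F p.1 p.2 = 1 := Units.ext (by
            rw [val_xGL hS, ChevalleyDatum.x, dif_neg hp, Units.val_one])
          rw [this]
          exact one_mem _
      · rw [Units.val_mul, val_xGL hS, hhw, ChevalleyDatum.wordMat, ChevalleyDatum.wordMat,
          List.map_cons, List.prod_cons]
  rw [show g = h from Units.ext (hg.trans hhw.symm)]
  exact hh

theorem pow32_eq_one [Fintype F] {g : GL chevF4.Idx F} (hg : g ∈ chevF4.group F) {j : ℕ}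
    (hj : g ^ 2 ^ j = 1) : g ^ 32 = 1 := by
  classical
  haveI : Fact (Nat.Prime 2) := ⟨Nat.prime_two⟩
  have hS : Rules chevF4 F := Chev.rules_of_mem F (by simp)
  obtain ⟨len, hR⟩ := hS.root
  set U := (chevF4.posUnipotent F).subgroupOf (chevF4.group F) with hU
  have hp : IsPGroup 2 U := fun u => ⟨5, Subtype.ext (Subtype.ext (by
    simpa using pow32_posUnipotent (Subgroup.mem_subgroupOf.1 u.2)))⟩
  have hi : ¬ 2 ∣ U.index :=
    Nat.two_dvd_ne_zero.2 (Nat.odd_iff.1 (Known.ChevFieldInvol.odd_index_posUnipotent hS hR))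
  let P : Sylow 2 (chevF4.group F) := hp.toSylow hi
  set x : chevF4.group F := ⟨g, hg⟩
  have hx : IsPGroup 2 (Subgroup.zpowers x) := by
    rintro ⟨y, k, rfl⟩
    refine ⟨j, Subtype.ext ?_⟩
    have h1 : x ^ 2 ^ j = 1 := Subtype.ext hj
    rw [SubmonoidClass.coe_pow, ← zpow_natCast, ← zpow_mul, mul_comm, zpow_mul, zpow_natCast, h1,
      one_zpow, Subgroup.coe_one]
  obtain ⟨Q, hQ⟩ := hx.exists_le_sylow
  obtain ⟨c, hc⟩ := MulAction.exists_smul_eq (chevF4.group F) Q P
  have h1 : c * x * c⁻¹ ∈ (P : Subgroup (chevF4.group F)) := by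
    rw [← hc, Sylow.coe_subgroup_smul]
    exact ⟨x, hQ (Subgroup.mem_zpowers x), rfl⟩
  have h2 : ((c * x * c⁻¹ : chevF4.group F) : GL chevF4.Idx F) ^ 32 = 1 :=
    pow32_posUnipotent (Subgroup.mem_subgroupOf.1 h1)
  rw [Subgroup.coe_mul, Subgroup.coe_mul, Subgroup.coe_inv, conj_pow, mul_inv_eq_one,
    mul_eq_left] at h2
  exact h2

end Cfsg.Agent.ReeExp
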